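import Cfsg.Agent.H873.RG.Defs
import Cfsg.Agent.H380.RC.Rules
import Cfsg.Agent.Lib.Cores

/-!
# S3509: the engine for covers by inner-diagonal elements of a group of Lie type (helper368)

`N` the socle, `D` the group of inner-diagonal elements (`N ≤ D`), `p` the characteristic.

* `LRData` : long root elements `v` with a nilpotent `p`-group `U v` centralised by `v`, normalised by the elements of
  `D` commuting with `v`, and `v ∈ [U v, y]` for all `p'`-elements `1 ≠ y ∈ D` commuting with `v`;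
* `Useful` : `y` centralises a quasisimple `M ≤ N`, not alternating modulo the centre, normalised by `C_D(y)`, containing
  a long root element;
* `kill_lr` : long root element together with commuting `p'`-elements commuting with it: no cover;
* `engine` : no cover by commuting elements of `D` of different prime orders, if `O_p(C_N(s)) = 1` for the `p'`-elements
  `s ∈ D` and no family of not useful `p'`-elements covers.
-/

set_option autoImplicit false
open Cfsg

namespace Cfsg.Agent.H368.RG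

open MulAction Cfsg.Agent.H106.RC Cfsg.Agent.H380.RC Cfsg.Agent.H873.RG

/-- long root data -/
structure LRData {G : Type*} [Group G] (D : Subgroup G) (p : ℕ) (V : G → Prop) (U : G → Subgroup G) : Prop where
  ne : ∀ v, V v → v ≠ 1
  comm : ∀ v, V v → ∀ u ∈ U v, u * v = v * u
  nil : ∀ v, V v → Group.IsNilpotent (U v)
  card : ∀ v, V v → ∀ r : ℕ, r.Prime → r ≠ p → r.Coprime (Nat.card (U v))
  norm : ∀ v, V v → ∀ y ∈ D, y * v = v * y → ∀ u ∈ U v, y * u * y⁻¹ ∈ U v
  mem : ∀ v, V v → ∀ y ∈ D, y * v = v * y → y ≠ 1 → ∀ r : ℕ, r.Prime → r ≠ p → y ^ r = 1 → v ∈ cmm (U v) y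

/-- useful elements -/
def Useful {G : Type} [Group G] (N D : Subgroup G) (V : G → Prop) (y : G) : Prop :=
  ∃ (M : Subgroup G) (S' : Type) (_ : Group S') (_ : Finite S') (π : M →* S'), M ≤ N ∧ M ≠ N ∧ ⁅M, M⁆ = M ∧
    Function.Surjective π ∧ π.ker ≤ Subgroup.center M ∧ NSA S' ∧
    (∀ c ∈ D, c * y = y * c → c ∈ Subgroup.normalizer (M : Set G)) ∧ (∀ m ∈ M, y * m = m * y) ∧ ∃ v ∈ M, V v

section abs

variable {G Ω : Type} [Group G] [Finite G] [MulAction G Ω] {N D : Subgroup G}

/-- **Kill by a long root element.** -/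
theorem kill_lr {ι : Type*} [Finite ι] [Nonempty Ω] (hE : Env G Ω N) {p : ℕ} {V : G → Prop} {U : G → Subgroup G}
    (hL : LRData D p V U) {v : G} (hv : V v) {x : ι → G} {r : ι → ℕ} (hD : ∀ i, x i ∈ D) (h1 : ∀ i, x i ≠ 1)
    (hr : ∀ i, (r i).Prime) (hrp : ∀ i, r i ≠ p) (hx : ∀ i, x i ^ r i = 1) (hc : ∀ i j, x i * x j = x j * x i)
    (hxv : ∀ i, x i * v = v * x i) (hcov : ∀ ω : Ω, v • ω = ω ∨ ∃ i, x i • ω = ω) : False :=
  not_cov_lr hE hr hx hc (U := U v) hcov (fun i u hu => hL.norm v hv (x i) (hD i) (hxv i) u hu) (hL.nil v hv)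
    (fun i => hL.card v hv (r i) (hr i) (hrp i)) (hL.comm v hv) (hL.ne v hv)
    (fun i => hL.mem v hv (x i) (hD i) (hxv i) (h1 i) (r i) (hr i) (hrp i) (hx i))

/-- **M-rule with further members centralising `M`.** -/
theorem mstep {S S' ι : Type} [Group S] [Finite S] [Group S'] [Finite S'] [Finite ι]
    (hIH : IHx (Nat.card S)) (e : N ≃* S) {M : Subgroup G} (hMN : M ≤ N)
    (hne : M ≠ N) (hperf : ⁅M, M⁆ = M) (π : M →* S') (hπ : Function.Surjective π)
    (hker : π.ker ≤ Subgroup.center M) (h : NSA S')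
    {x : ι → G} {r : ι → ℕ} (hx : PF x r) (hnorm : ∀ i, x i ∈ Subgroup.normalizer (M : Set G))
    {P : Ω → Prop} (hP : ∀ m ∈ M, ∀ ω, P (m • ω) → P ω) (hcov : ∀ ω : Ω, P ω ∨ ∃ i, x i • ω = ω) (ω : Ω) :
    P ω ∨ M ≤ stabilizer G ω ∨ ∃ j, (∀ m ∈ M, x j * m = m * x j) ∧ x j • ω = ω := by
  by_cases hω : P ω
  · exact Or.inl hω
  right
  refine mrule_RC h.simple h.ncomm x r hx.prime hx.inj hx.pow hx.comm M hperf π hπ hker hnorm
    (hIH.use e hMN hne π hπ h) ω (fun m hm => ?_)
  rcases hcov (m • ω) with h1 | h1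
  · exact absurd (hP m hm ω h1) hω
  · exact h1

/-- a finite group without elements of prime order `≠ p` is a `p`-group -/
theorem isPGroup_of {K : Type*} [Group K] [Finite K] {p : ℕ}
    (h : ∀ y : K, ∀ t : ℕ, t.Prime → t ≠ p → y ^ t = 1 → y = 1) : IsPGroup p K := by
  have h1 : ∀ t : ℕ, t.Prime → t ∣ Nat.card K → t = p := by
    intro t ht hd
    by_contra hne
    have : Fact t.Prime := ⟨ht⟩
    obtain ⟨y, hy⟩ := exists_prime_orderOf_dvd_card' t hd
    have h2 := h y t ht hne (by rw [← hy]; exact pow_orderOf_eq_one y)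
    rw [h2, orderOf_one] at hy
    exact ht.one_lt.ne hy
  exact IsPGroup.of_card (n := (Nat.card K).primeFactorsList.length)
    (Nat.eq_prime_pow_of_unique_prime_dvd Nat.card_pos.ne' (fun {d} hd hdv => h1 d hd hdv))

/-- a `q`-subgroup normal in a normal subgroup lies in `O_q(G)` -/
theorem le_pCore_of_normal_in_normal {C : Type*} [Group C] {q : ℕ} {R X : Subgroup C} (hX : X.Normal) (hRX : R ≤ X)
    (hn : X ≤ Subgroup.normalizer (R : Set C)) (hR : IsPGroup q R) : R ≤ pCore q C := by
  have hmap : (R.subgroupOf X).map X.subtype = R := by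
    rw [Subgroup.subgroupOf_map_subtype, inf_eq_left.2 hRX]
  have h1 : (R.subgroupOf X).Normal := Subgroup.normal_subgroupOf_of_le_normalizer hn
  have h2 : R.subgroupOf X ≤ pCore q X := Cfsg.Agent.Lib.Cores.le_pCore h1 hR.comap_subtype
  have h3 := Subgroup.map_mono (f := X.subtype) h2
  rw [hmap, Cfsg.Agent.Lib.Cores.map_subtype_pCore q hX] at h3
  exact h3.trans inf_le_right

/-- the normal closure of `u` in `F` -/
def nclo (F : Subgroup G) (u : G) : Subgroup G := Subgroup.closure {z | ∃ c ∈ F, z = c * u * c⁻¹}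

omit [Finite G] in
theorem nclo_self (F : Subgroup G) (u : G) : u ∈ nclo F u := Subgroup.subset_closure ⟨1, F.one_mem, by simp⟩

omit [Finite G] in
theorem nclo_conj {F : Subgroup G} {u c z : G} (hc : c ∈ F) (hz : z ∈ nclo F u) : c * z * c⁻¹ ∈ nclo F u := by
  have h : nclo F u ≤ (nclo F u).comap (MulAut.conj c).toMonoidHom := by
    conv_lhs => rw [nclo]
    rw [Subgroup.closure_le]
    rintro _ ⟨d, hd, rfl⟩
    refine Subgroup.subset_closure ⟨c * d, F.mul_mem hc hd, ?_⟩
    show c * (d * u * d⁻¹) * c⁻¹ = c * d * u * (c * d)⁻¹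
    group
  exact h hz

omit [Finite G] in
theorem nclo_le {F : Subgroup G} {u : G} (hu : u ∈ F) : nclo F u ≤ F := by
  rw [nclo, Subgroup.closure_le]
  rintro _ ⟨c, hc, rfl⟩
  exact F.mul_mem (F.mul_mem hc hu) (F.inv_mem hc)

omit [Finite G] in
/-- the points without `P`, where `P ∪ Fix(u)` is everything, are fixed by the normal closure of `u` -/
theorem nclo_fix {F : Subgroup G} {u : G} {P : Ω → Prop} (hP : ∀ c ∈ F, ∀ ω, P (c • ω) → P ω)
    (hcov : ∀ ω : Ω, P ω ∨ u • ω = ω) {z : G} (hz : z ∈ nclo F u) (ω : Ω) : P ω ∨ z • ω = ω := by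
  by_cases hω : P ω
  · exact Or.inl hω
  right
  have h : nclo F u ≤ stabilizer G ω := by
    rw [nclo, Subgroup.closure_le]
    rintro _ ⟨c, hc, rfl⟩
    show (c * u * c⁻¹) • ω = ω
    rcases hcov (c⁻¹ • ω) with h1 | h1
    · exact absurd (hP c⁻¹ (F.inv_mem hc) ω h1) hω
    · rw [mul_smul, mul_smul, h1, smul_inv_smul]
  exact h hz

omit [Finite G] in
/-- **A generator of the group generated by some of the members.** -/
theorem exists_s {ι : Type*} [Finite ι] {x : ι → G} {r : ι → ℕ} (hx : PF x r) {p : ℕ} (hp : p.Prime) (J : Set ι)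
    (hJ : ∀ i ∈ J, r i ≠ p) (D : Subgroup G) (hD : ∀ i, x i ∈ D) :
    ∃ s ∈ D, (∃ m : ℕ, m.Coprime p ∧ s ^ m = 1) ∧ ∀ c : G, c * s = s * c ↔ ∀ i ∈ J, c * x i = x i * c := by
  classical
  have := Fintype.ofFinite ↥J
  obtain ⟨s, hs, hs1⟩ := exists_gen (fun i : J => x i) (fun i => r i) (fun i => hx.prime i)
    (fun i j h => Subtype.ext (hx.inj h)) (fun i => hx.pow i) (fun i j => hx.comm i j)
  have hcc : ∀ a ∈ Subgroup.closure (Set.range fun i : J => x i), ∀ c : G, (∀ i ∈ J, c * x i = x i * c) → c * a = a * c := by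
    intro a ha c hc
    have h1 : Subgroup.closure (Set.range fun i : J => x i) ≤ Subgroup.centralizer {c} := by
      rw [Subgroup.closure_le]
      rintro _ ⟨i, rfl⟩
      rw [SetLike.mem_coe, Subgroup.mem_centralizer_singleton_iff]
      exact (hc i i.2).symm
    exact (Subgroup.mem_centralizer_singleton_iff.1 (h1 ha)).symm
  have hpw : ∀ a ∈ Subgroup.closure (Set.range fun i : J => x i), a ^ (∏ i : J, r i) = 1 := by
    intro a ha
    induction ha using Subgroup.closure_induction with
    | mem y hy =>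
      obtain ⟨i, rfl⟩ := hy
      obtain ⟨k, hk⟩ := Finset.dvd_prod_of_mem (fun i : J => r i) (Finset.mem_univ i)
      show x i ^ _ = 1
      rw [hk, pow_mul, hx.pow, one_pow]
    | one => exact one_pow _
    | mul a b ha hb iha ihb =>
      have h1 : Commute a b := hcc b hb a fun i hi => (hcc a ha (x i) fun j _ => hx.comm i j).symm
      rw [h1.mul_pow, iha, ihb, mul_one]
    | inv a _ iha => rw [inv_pow, iha, inv_one]
  refine ⟨s, ?_, ⟨∏ i : J, r i, ?_, hpw s hs⟩, fun c => ⟨fun h i hi => ?_, fun h => hcc s hs c h⟩⟩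
  · have h1 : Subgroup.closure (Set.range fun i : J => x i) ≤ D := by
      rw [Subgroup.closure_le]
      rintro _ ⟨i, rfl⟩
      exact hD i
    exact h1 hs
  · refine Nat.Coprime.prod_left fun i _ => ?_
    rw [Nat.coprime_primes (hx.prime i) hp]
    exact hJ i i.2
  · obtain ⟨k, hk⟩ := Subgroup.mem_zpowers_iff.1 (hs1 ⟨i, hi⟩)
    have h2 : Commute c (s ^ k) := (show Commute c s from h).zpow_right k
    have h3 : s ^ k = x i := hk
    rw [h3] at h2
    exact h2

/-- a normal subgroup (normal closure of `u`) is not a `p`-group if `O_p(C) = 1` -/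
theorem exists_y {p : ℕ} {C F : Subgroup G} (hFC : F ≤ C) (hC : pCore p ↥C = ⊥)
    (hn : ∀ c ∈ C, ∀ z ∈ F, c * z * c⁻¹ ∈ F) {u : G} (hu : u ∈ F) (hu1 : u ≠ 1) :
    ∃ y ∈ nclo F u, y ≠ 1 ∧ ∃ t : ℕ, t.Prime ∧ t ≠ p ∧ y ^ t = 1 := by
  by_contra hcon
  push Not at hcon
  have hP : IsPGroup p ↥(nclo F u) := by
    refine isPGroup_of fun y t ht htp hy => ?_
    by_contra hy1
    exact hcon y y.2 (fun h => hy1 (Subtype.ext h)) t ht htp (by rw [← Subgroup.coe_pow, hy, Subgroup.coe_one])
  have h1 : (nclo F u).subgroupOf C ≤ pCore p ↥C := by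
    refine le_pCore_of_normal_in_normal (X := F.subgroupOf C) ⟨?_⟩ ?_ ?_ hP.comap_subtype
    · intro z hz c
      rw [Subgroup.mem_subgroupOf] at hz ⊢
      rw [Subgroup.coe_mul, Subgroup.coe_mul, Subgroup.coe_inv]
      exact hn c c.2 z hz
    · exact fun z hz => nclo_le hu hz
    · intro f hf
      rw [Subgroup.mem_normalizer_iff]
      intro z
      constructor
      · intro hz
        exact nclo_conj (F := F) hf hz
      · intro hz
        have h2 := nclo_conj (F := F) (F.inv_mem hf) hz
        rw [Subgroup.mem_subgroupOf]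
        have e : (z : G) = (f : G)⁻¹ * ((f * z * f⁻¹ : ↥C) : G) * ((f : G)⁻¹)⁻¹ := by
          rw [Subgroup.coe_mul, Subgroup.coe_mul, Subgroup.coe_inv]; group
        rw [e]
        exact h2
  rw [hC] at h1
  have h2 : (⟨u, hFC hu⟩ : ↥C) ∈ (nclo F u).subgroupOf C := nclo_self F u
  exact hu1 (congrArg Subtype.val (Subgroup.mem_bot.1 (h1 h2)))

omit [Finite G] in
theorem normalizer_cent {M : Subgroup G} {c z : G} (hc : c ∈ Subgroup.normalizer (M : Set G))
    (hz : ∀ m ∈ M, z * m = m * z) : ∀ m ∈ M, (c * z * c⁻¹) * m = m * (c * z * c⁻¹) := by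
  intro m hm
  have h1 : c⁻¹ * m * c ∈ M := by
    have := (Subgroup.mem_normalizer_iff.1 ((Subgroup.normalizer (M : Set G)).inv_mem hc) m).1 hm
    rwa [inv_inv] at this
  have h2 := hz _ h1
  calc c * z * c⁻¹ * m = c * (z * (c⁻¹ * m * c)) * c⁻¹ := by group
    _ = c * ((c⁻¹ * m * c) * z) * c⁻¹ := by rw [h2]
    _ = m * (c * z * c⁻¹) := by group

/-- **The engine.** -/
theorem engine {S ι : Type} [Nonempty Ω] [Group S] [Finite S] [Finite ι] (hE : Env G Ω N) (e : N ≃* S)
    (hIH : IHx (Nat.card S)) {p : ℕ} (hp : p.Prime) {V : G → Prop} {U : G → Subgroup G} (hL : LRData D p V U)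
    (hND : N ≤ D) (hpN : ∀ u ∈ D, u ^ p = 1 → u ∈ N)
    (hB : ∀ s ∈ D, (∃ m : ℕ, m.Coprime p ∧ s ^ m = 1) → pCore p ↥(N ⊓ Subgroup.centralizer {s}) = ⊥)
    (hS : ∀ z : ι → G, (∀ i, z i ∈ D ∧ z i ≠ 1 ∧ (∃ r : ℕ, r.Prime ∧ r ≠ p ∧ z i ^ r = 1) ∧ ¬ Useful N D V (z i)) →
      (∀ i j, z i * z j = z j * z i) → ¬ Cov Ω z)
    {x : ι → G} {r : ι → ℕ} (hx : PF x r) (hcov : Cov Ω x) (hD : ∀ i, x i ∈ D) : False := by
  classical
  by_cases hpi : ∃ i, r i = p
  · obtain ⟨i₀, hi₀⟩ := hpi
    have hrne : ∀ i, i ≠ i₀ → r i ≠ p := fun i hi h => hi (hx.inj (h.trans hi₀.symm))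
    have huN : x i₀ ∈ N := hpN _ (hD i₀) (by rw [← hi₀]; exact hx.pow i₀)
    by_cases hU : ∃ i, i ≠ i₀ ∧ Useful N D V (x i)
    · obtain ⟨i₁, hi₁, M, S', _, _, π, hMN, hMne, hperf, hπ, hker, hNSA, hnorm, hcen, v, hvM, hV⟩ := hU
      have hnx : ∀ i, x i ∈ Subgroup.normalizer (M : Set G) := fun i => hnorm _ (hD i) (hx.comm i i₁)
      have h1 : ∀ ω : Ω, False ∨ M ≤ stabilizer G ω ∨ ∃ j, (∀ m ∈ M, x j * m = m * x j) ∧ x j • ω = ω :=
        fun ω => mstep hIH e hMN hMne hperf π hπ hker hNSA hx hnx (P := fun _ => False) (fun _ _ _ h => h)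
          (fun ω => Or.inr (hcov ω)) ω
      by_cases hu : ∀ m ∈ M, x i₀ * m = m * x i₀
      · -- `u` centralises `M`
        let J : Set ι := {j | j ≠ i₀ ∧ ∀ m ∈ M, x j * m = m * x j}
        obtain ⟨s, hsD, hsm, hsc⟩ := exists_s hx hp J (fun i hi => hrne i hi.1) D hD
        set C : Subgroup G := N ⊓ Subgroup.centralizer {s} with hCdef
        have hCx : ∀ c ∈ C, ∀ j ∈ J, c * x j = x j * c := fun c hc =>
          (hsc c).1 (Subgroup.mem_centralizer_singleton_iff.1 hc.2)
        have hCM : ∀ c ∈ C, c ∈ Subgroup.normalizer (M : Set G) := fun c hc =>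
          hnorm c (hND hc.1) (hCx c hc i₁ ⟨hi₁, hcen⟩)
        set F : Subgroup G := C ⊓ Subgroup.centralizer (M : Set G) with hFdef
        have hFM : ∀ c ∈ F, ∀ m ∈ M, c * m = m * c := fun c hc m hm =>
          ((Subgroup.mem_centralizer_iff.1 hc.2) m hm).symm
        have huF : x i₀ ∈ F := by
          refine ⟨⟨huN, ?_⟩, ?_⟩
          · exact Subgroup.mem_centralizer_singleton_iff.2 ((hsc _).2 fun i _ => hx.comm i₀ i)
          · exact Subgroup.mem_centralizer_iff.2 fun m hm => (hu m hm).symm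
        obtain ⟨y, hyK, hy1, t, ht, htp, hyt⟩ := exists_y (C := C) (F := F) inf_le_left (hB s hsD hsm) (by
          intro c hc z hz
          exact ⟨C.mul_mem (C.mul_mem hc hz.1) (C.inv_mem hc), Subgroup.mem_centralizer_iff.2 fun m hm =>
            (normalizer_cent (hCM c hc) (hFM z hz) m hm).symm⟩) huF (hx.ne i₀)
        have hyF : y ∈ F := nclo_le huF hyK
        have h2 : ∀ ω : Ω, (M ≤ stabilizer G ω ∨ ∃ j ∈ J, x j • ω = ω) ∨ y • ω = ω := by
          refine fun ω => nclo_fix (F := F) (u := x i₀) (P := fun ω => M ≤ stabilizer G ω ∨ ∃ j ∈ J, x j • ω = ω)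
            ?_ ?_ hyK ω
          · rintro c hc ω (h | ⟨j, hj, h⟩)
            · left
              intro m hm
              have h3 : m • c • ω = c • ω := h hm
              rw [← mul_smul, ← hFM c hc m hm, mul_smul] at h3
              exact MulAction.injective c h3
            · right
              refine ⟨j, hj, ?_⟩
              rw [← mul_smul, ← hCx c hc.1 j hj, mul_smul] at h
              exact MulAction.injective c h
          · intro ω
            rcases h1 ω with h | h | ⟨j, hj, h⟩
            · exact h.elim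
            · exact Or.inl (Or.inl h)
            · by_cases hji : j = i₀
              · right; rw [← hji]; exact h
              · exact Or.inl (Or.inr ⟨j, ⟨hji, hj⟩, h⟩)
        refine kill_lr hE hL hV (ι := Option J) (x := fun o => o.elim y fun j => x j) (r := fun o => o.elim t fun j => r j)
          ?_ ?_ ?_ ?_ ?_ ?_ ?_ ?_
        · rintro (_ | j)
          · exact hND hyF.1.1
          · exact hD j
        · rintro (_ | j)
          · exact hy1
          · exact hx.ne j
        · rintro (_ | j)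
          · exact ht
          · exact hx.prime j
        · rintro (_ | j)
          · exact htp
          · exact hrne j j.2.1
        · rintro (_ | j)
          · exact hyt
          · exact hx.pow j
        · rintro (_ | i) (_ | j)
          · rfl
          · exact hCx y hyF.1 j j.2
          · exact (hCx y hyF.1 i i.2).symm
          · exact hx.comm i j
        · rintro (_ | j)
          · exact hFM y hyF v hvM
          · exact j.2.2 v hvM
        · intro ω
          rcases h2 ω with (h | ⟨j, hj, h⟩) | h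
          · exact Or.inl (h hvM)
          · exact Or.inr ⟨some ⟨j, hj⟩, h⟩
          · exact Or.inr ⟨none, h⟩
      · -- `u` is dropped
        refine kill_lr hE hL hV (ι := {j // ∀ m ∈ M, x j * m = m * x j}) (x := fun j => x j) (r := fun j => r j)
          (fun j => hD j) (fun j => hx.ne j) (fun j => hx.prime j)
          (fun j => hrne j fun h => hu (by rw [← h]; exact j.2)) (fun j => hx.pow j) (fun i j => hx.comm i j)
          (fun j => j.2 v hvM) (fun ω => ?_)
        rcases h1 ω with h | h | ⟨j, hj, h⟩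
        · exact h.elim
        · exact Or.inl (h hvM)
        · exact Or.inr ⟨⟨j, hj⟩, h⟩
    · -- no useful member besides `u`
      push Not at hU
      obtain ⟨s, hsD, hsm, hsc⟩ := exists_s hx hp {i | i ≠ i₀} (fun i hi => hrne i hi) D hD
      set C : Subgroup G := N ⊓ Subgroup.centralizer {s} with hCdef
      have hCx : ∀ c ∈ C, ∀ j, j ≠ i₀ → c * x j = x j * c := fun c hc =>
        (hsc c).1 (Subgroup.mem_centralizer_singleton_iff.1 hc.2)
      have huC : x i₀ ∈ C := by
        exact ⟨huN, Subgroup.mem_centralizer_singleton_iff.2 ((hsc _).2 fun i _ => hx.comm i₀ i)⟩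
      obtain ⟨y, hyK, hy1, t, ht, htp, hyt⟩ := exists_y (C := C) (F := C) le_rfl (hB s hsD hsm)
        (fun c hc z hz => C.mul_mem (C.mul_mem hc hz) (C.inv_mem hc)) huC (hx.ne i₀)
      have hyC : y ∈ C := nclo_le huC hyK
      have h2 : ∀ ω : Ω, (∃ j, j ≠ i₀ ∧ x j • ω = ω) ∨ y • ω = ω := by
        refine fun ω => nclo_fix (F := C) (u := x i₀) (P := fun ω => ∃ j, j ≠ i₀ ∧ x j • ω = ω) ?_ ?_ hyK ω
        · rintro c hc ω ⟨j, hj, h⟩
          refine ⟨j, hj, ?_⟩
          rw [← mul_smul, ← hCx c hc j hj, mul_smul] at h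
          exact MulAction.injective c h
        · intro ω
          obtain ⟨j, h⟩ := hcov ω
          by_cases hji : j = i₀
          · right; rw [← hji]; exact h
          · exact Or.inl ⟨j, hji, h⟩
      by_cases hy : Useful N D V y
      · obtain ⟨M, S', _, _, π, hMN, hMne, hperf, hπ, hker, hNSA, hnorm, hcen, v, hvM, hV⟩ := hy
        have hx' : PF (fun j : {j // j ≠ i₀} => x j) (fun j => r j) :=
          ⟨fun i => hx.prime i, fun i j h => Subtype.ext (hx.inj h), fun i => hx.pow i, fun i => hx.ne i,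
            fun i j => hx.comm i j⟩
        have h3 : ∀ ω : Ω, y • ω = ω ∨ M ≤ stabilizer G ω ∨
            ∃ j : {j // j ≠ i₀}, (∀ m ∈ M, x j * m = m * x j) ∧ x j • ω = ω := by
          refine fun ω => mstep hIH e hMN hMne hperf π hπ hker hNSA hx' (fun i => hnorm _ (hD i) (hCx y hyC i i.2).symm)
            (P := fun ω => y • ω = ω) ?_ ?_ ω
          · intro m hm ω h
            rw [← mul_smul, hcen m hm, mul_smul] at h
            exact MulAction.injective m h
          · intro ω
            rcases h2 ω with ⟨j, hj, h⟩ | h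
            · exact Or.inr ⟨⟨j, hj⟩, h⟩
            · exact Or.inl h
        refine kill_lr hE hL hV (ι := Option {j : {j // j ≠ i₀} // ∀ m ∈ M, x j * m = m * x j})
          (x := fun o => o.elim y fun j => x j.1) (r := fun o => o.elim t fun j => r j.1) ?_ ?_ ?_ ?_ ?_ ?_ ?_ ?_
        · rintro (_ | j)
          · exact hND hyC.1
          · exact hD j.1
        · rintro (_ | j)
          · exact hy1
          · exact hx.ne j.1
        · rintro (_ | j)
          · exact ht
          · exact hx.prime j.1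
        · rintro (_ | j)
          · exact htp
          · exact hrne j.1 j.1.2
        · rintro (_ | j)
          · exact hyt
          · exact hx.pow j.1
        · rintro (_ | i) (_ | j)
          · rfl
          · exact hCx y hyC j.1 j.1.2
          · exact (hCx y hyC i.1 i.1.2).symm
          · exact hx.comm i.1 j.1
        · rintro (_ | j)
          · exact hcen v hvM
          · exact j.2 v hvM
        · intro ω
          rcases h3 ω with h | h | ⟨j, hj, h⟩
          · exact Or.inr ⟨none, h⟩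
          · exact Or.inl (h hvM)
          · exact Or.inr ⟨some ⟨j, hj⟩, h⟩
      · refine hS (Function.update x i₀ y) (fun i => ?_) (fun i j => ?_) (fun ω => ?_)
        · by_cases hi : i = i₀
          · subst hi
            rw [Function.update_self]
            exact ⟨hND hyC.1, hy1, ⟨t, ht, htp, hyt⟩, hy⟩
          · rw [Function.update_of_ne hi]
            exact ⟨hD i, hx.ne i, ⟨r i, hx.prime i, hrne i hi, hx.pow i⟩, hU i hi⟩
        · by_cases hi : i = i₀ <;> by_cases hj : j = i₀
          · rw [hi, hj]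
          · rw [hi, Function.update_self, Function.update_of_ne hj]
            exact hCx y hyC j hj
          · rw [hj, Function.update_self, Function.update_of_ne hi]
            exact (hCx y hyC i hi).symm
          · rw [Function.update_of_ne hi, Function.update_of_ne hj]
            exact hx.comm i j
        · rcases h2 ω with ⟨j, hj, h⟩ | h
          · exact ⟨j, by rwa [Function.update_of_ne hj]⟩
          · exact ⟨i₀, by rwa [Function.update_self]⟩
  · push Not at hpi
    by_cases hU : ∃ i, Useful N D V (x i)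
    · obtain ⟨i₁, M, S', _, _, π, hMN, hMne, hperf, hπ, hker, hNSA, hnorm, hcen, v, hvM, hV⟩ := hU
      have h1 : ∀ ω : Ω, False ∨ M ≤ stabilizer G ω ∨ ∃ j, (∀ m ∈ M, x j * m = m * x j) ∧ x j • ω = ω :=
        fun ω => mstep hIH e hMN hMne hperf π hπ hker hNSA hx (fun i => hnorm _ (hD i) (hx.comm i i₁))
          (P := fun _ => False) (fun _ _ _ h => h) (fun ω => Or.inr (hcov ω)) ω
      refine kill_lr hE hL hV (ι := {j // ∀ m ∈ M, x j * m = m * x j}) (x := fun j => x j) (r := fun j => r j)
        (fun j => hD j) (fun j => hx.ne j) (fun j => hx.prime j) (fun j => hpi j) (fun j => hx.pow j)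
        (fun i j => hx.comm i j) (fun j => j.2 v hvM) (fun ω => ?_)
      rcases h1 ω with h | h | ⟨j, hj, h⟩
      · exact h.elim
      · exact Or.inl (h hvM)
      · exact Or.inr ⟨⟨j, hj⟩, h⟩
    · push Not at hU
      exact hS x (fun i => ⟨hD i, hx.ne i, ⟨r i, hx.prime i, hpi i, hx.pow i⟩, hU i⟩) hx.comm hcov

end abs

end Cfsg.Agent.H368.RG
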