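import Cfsg.Agent.H368.RG.Engine

/-!
# S3509: the engine, second form (helper368)

* `Good N M`     : `M < N` quasisimple, `M/Z(M)` not alternating;
* `Dead Ω D p M` : commuting `p'`-elements of prime order of `C_D(M)` never cover together with the points fixed by `M`
  (`dead_lr` : `M` contains a long root element; `dead_self` : `C_D(M) ≤ ⟨y⟩`, `y ∈ M`);
* `UsefulBy Ω N D p M y` : `M` good and dead, centralised by `y`, normalised by the elements of `C_D(y)` of order prime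
  to the order of `y`;
* `engine2` : no cover, from (B) `O_p(C_N(s)) = 1`, (M3) normality for members of equal prime, (S1) no cover by not
  useful `p'`-elements, (S2) no mixed cover without useful elements;
* `engine2_one` : (S1) and (S2) replaced by: commuting not useful `p'`-elements of prime order do not cover.
-/

set_option autoImplicit false
open Cfsg

namespace Cfsg.Agent.H368.RG

open MulAction Cfsg.Agent.H106.RC Cfsg.Agent.H380.RC Cfsg.Agent.H873.RG

/-- `M < N` quasisimple, `M/Z(M)` not alternating -/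
structure Good {G : Type} [Group G] (N M : Subgroup G) : Prop where
  le : M ≤ N
  ne : M ≠ N
  perf : ⁅M, M⁆ = M
  quot : ∃ (S' : Type) (_ : Group S') (_ : Finite S') (π : M →* S'),
    Function.Surjective π ∧ π.ker ≤ Subgroup.center M ∧ NSA S'

/-- a `p'`-element of prime order of `D` -/
def PPr {G : Type*} [Group G] (D : Subgroup G) (p : ℕ) (z : G) : Prop :=
  z ∈ D ∧ z ≠ 1 ∧ ∃ r : ℕ, r.Prime ∧ r ≠ p ∧ z ^ r = 1

/-- commuting `p'`-elements of prime order of `C_D(M)` never cover together with the points fixed by `M` -/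
def Dead {G : Type} [Group G] (Ω : Type) [MulAction G Ω] (D : Subgroup G) (p : ℕ) (M : Subgroup G) : Prop :=
  ∀ (κ : Type) [Finite κ] (z : κ → G), (∀ k, PPr D p (z k) ∧ ∀ m ∈ M, z k * m = m * z k) →
    (∀ k l, z k * z l = z l * z k) → ¬ ∀ ω : Ω, M ≤ stabilizer G ω ∨ ∃ k, z k • ω = ω

/-- `y` is useful by means of `M` -/
structure UsefulBy {G : Type} [Group G] (Ω : Type) [MulAction G Ω] (N D : Subgroup G) (p : ℕ) (M : Subgroup G) (y : G) :
    Prop where
  good : Good N M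
  dead : Dead Ω D p M
  cent : ∀ m ∈ M, y * m = m * y
  norm : ∀ c ∈ D, c * y = y * c → (orderOf c).Coprime (orderOf y) → c ∈ Subgroup.normalizer (M : Set G)

/-- `y` is useful -/
def Us {G : Type} [Group G] (Ω : Type) [MulAction G Ω] (N D : Subgroup G) (p : ℕ) (y : G) : Prop :=
  ∃ M : Subgroup G, UsefulBy Ω N D p M y

section lemmas

variable {G : Type*} [Group G]

theorem mem_normalizer_of_comm {M : Subgroup G} {y : G} (h : ∀ m ∈ M, y * m = m * y) :
    y ∈ Subgroup.normalizer (M : Set G) := by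
  rw [Subgroup.mem_normalizer_iff]
  intro m
  constructor
  · intro hm
    rw [h m hm, mul_inv_cancel_right]
    exact hm
  · intro hm
    have h1 := h _ hm
    have h2 : y * m * y⁻¹ = m := by
      have h3 : y * (y * m * y⁻¹) = y * m := by rw [h1]; group
      exact mul_left_cancel h3
    rwa [h2] at hm

theorem pCore_bot_of_normal [Finite G] {p : ℕ} {C C' : Subgroup G} (hle : C' ≤ C)
    (hn : ∀ c ∈ C, ∀ z ∈ C', c * z * c⁻¹ ∈ C') (h : pCore p ↥C = ⊥) : pCore p ↥C' = ⊥ := by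
  have hX : (C'.subgroupOf C).Normal := by
    refine ⟨fun z hz c => ?_⟩
    rw [Subgroup.mem_subgroupOf] at hz ⊢
    rw [Subgroup.coe_mul, Subgroup.coe_mul, Subgroup.coe_inv]
    exact hn c c.2 z hz
  have h1 := Cfsg.Agent.Lib.Cores.map_subtype_pCore p hX
  rw [h, inf_bot_eq, Subgroup.map_eq_bot_iff_of_injective _ (Subgroup.subtype_injective _)] at h1
  have h2 := Cfsg.Agent.Lib.Cores.map_equiv_pCore (Subgroup.subgroupOfEquivOfLe hle) p
  rw [← h2, h1, Subgroup.map_bot]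

/-- the subgroup generated by the elements of `C` of order prime to `n` -/
def cop (C : Subgroup G) (n : ℕ) : Subgroup G := Subgroup.closure {c | c ∈ C ∧ (orderOf c).Coprime n}

theorem cop_le (C : Subgroup G) (n : ℕ) : cop C n ≤ C := by
  rw [cop, Subgroup.closure_le]
  exact fun c hc => hc.1

theorem mem_cop {C : Subgroup G} {n : ℕ} {c : G} (hc : c ∈ C) (h : (orderOf c).Coprime n) : c ∈ cop C n :=
  Subgroup.subset_closure ⟨hc, h⟩

theorem cop_conj {C : Subgroup G} {n : ℕ} {c z : G} (hc : c ∈ C) (hz : z ∈ cop C n) : c * z * c⁻¹ ∈ cop C n := by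
  have h : cop C n ≤ (cop C n).comap (MulAut.conj c).toMonoidHom := by
    conv_lhs => rw [cop]
    rw [Subgroup.closure_le]
    rintro d ⟨hd, h1⟩
    show c * d * c⁻¹ ∈ cop C n
    refine mem_cop (C.mul_mem (C.mul_mem hc hd) (C.inv_mem hc)) ?_
    have h2 : orderOf (c * d * c⁻¹) = orderOf d := by
      have := orderOf_injective (MulAut.conj c).toMonoidHom (MulAut.conj c).injective d
      exact this
    rwa [h2]
  exact h hz

end lemmas

section abs

variable {G Ω : Type} [Group G] [Finite G] [MulAction G Ω] {N D : Subgroup G}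

/-- a quasisimple group with a long root element is dead -/
theorem dead_lr [Nonempty Ω] (hE : Env G Ω N) {p : ℕ} {V : G → Prop} {U : G → Subgroup G} (hL : LRData D p V U)
    {M : Subgroup G} {v : G} (hvM : v ∈ M) (hv : V v) : Dead Ω D p M := by
  classical
  intro κ _ z hz hc hcov
  choose r hr using fun k => (hz k).1.2.2
  refine kill_lr hE hL hv (x := z) (r := r) (fun k => (hz k).1.1) (fun k => (hz k).1.2.1) (fun k => (hr k).1)
    (fun k => (hr k).2.1) (fun k => (hr k).2.2) hc (fun k => (hz k).2 v hvM) (fun ω => ?_)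
  rcases hcov ω with h | h
  · exact Or.inl (h hvM)
  · exact Or.inr h

omit [Finite G] in
/-- `y ∈ M` of prime order, `C_D(M) ≤ ⟨y⟩` -/
theorem dead_self [Nonempty Ω] (hE : Env G Ω N) {p : ℕ} {M : Subgroup G} {y : G} {t : ℕ} (ht : t.Prime) (hyt : y ^ t = 1)
    (hy1 : y ≠ 1) (hyM : y ∈ M) (hc : ∀ z ∈ D, (∀ m ∈ M, z * m = m * z) → z ∈ Subgroup.zpowers y) :
    Dead Ω D p M := by
  intro κ _ z hz _ hcov
  have hyo : orderOf y = t := orderOf_eq_prime hyt hy1 (hp := ⟨ht⟩)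
  refine hE.not_all hy1 fun ω => ?_
  rcases hcov ω with h | ⟨k, hk⟩
  · exact h hyM
  · have h1 : z k ∈ Subgroup.zpowers y := hc _ (hz k).1.1 (hz k).2
    have h2 : z k ≠ 1 := (hz k).1.2.1
    have h3 : y ∈ Subgroup.zpowers (z k) := by
      have hp : Fact (Nat.card (Subgroup.zpowers y)).Prime := ⟨by rw [Nat.card_zpowers, hyo]; exact ht⟩
      have h4 : (⟨z k, h1⟩ : Subgroup.zpowers y) ≠ 1 := fun h => h2 (congrArg Subtype.val h)
      have h5 := mem_zpowers_of_prime_card (p := Nat.card (Subgroup.zpowers y)) (g := (⟨z k, h1⟩ : Subgroup.zpowers y))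
        (g' := ⟨y, Subgroup.mem_zpowers y⟩) rfl h4
      obtain ⟨a, ha⟩ := Subgroup.mem_zpowers_iff.1 h5
      refine Subgroup.mem_zpowers_iff.2 ⟨a, ?_⟩
      have := congrArg Subtype.val ha
      simpa using this
    have h4 : z k ∈ stabilizer G ω := hk
    have h6 : Subgroup.zpowers (z k) ≤ stabilizer G ω := by rwa [Subgroup.zpowers_le]
    exact h6 h3

omit [Finite G] in
/-- a member useful by `M`: the whole family normalises `M` -/
theorem norm_all {ι : Type} {p : ℕ} {x : ι → G} {r : ι → ℕ} (hx : PF x r) (hD : ∀ i, x i ∈ D) {i₁ : ι} {M : Subgroup G}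
    (hU : UsefulBy Ω N D p M (x i₁)) (i : ι) : x i ∈ Subgroup.normalizer (M : Set G) := by
  by_cases hi : i = i₁
  · subst hi
    exact mem_normalizer_of_comm hU.cent
  · refine hU.norm _ (hD i) (hx.comm i i₁) ?_
    rw [orderOf_eq_prime (hx.pow i) (hx.ne i) (hp := ⟨hx.prime i⟩),
      orderOf_eq_prime (hx.pow i₁) (hx.ne i₁) (hp := ⟨hx.prime i₁⟩), Nat.coprime_primes (hx.prime i) (hx.prime i₁)]
    exact fun h => hi (hx.inj h)

/-- **One useful member, the element of order `p` does not centralise `M`.** -/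
theorem case_drop {S ι : Type} [Group S] [Finite S] [Finite ι] (e : N ≃* S)
    (hIH : IHx (Nat.card S)) {p : ℕ} {x : ι → G} {r : ι → ℕ} (hx : PF x r) (hcov : Cov Ω x) (hD : ∀ i, x i ∈ D)
    {M : Subgroup G} (hG : Good N M) (hdead : Dead Ω D p M) (hnx : ∀ i, x i ∈ Subgroup.normalizer (M : Set G))
    (hp : ∀ i, (∀ m ∈ M, x i * m = m * x i) → r i ≠ p) : False := by
  obtain ⟨S', _, _, π, hπ, hker, hNSA⟩ := hG.quot
  have h1 : ∀ ω : Ω, False ∨ M ≤ stabilizer G ω ∨ ∃ j, (∀ m ∈ M, x j * m = m * x j) ∧ x j • ω = ω :=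
    fun ω => mstep hIH e hG.le hG.ne hG.perf π hπ hker hNSA hx hnx (P := fun _ => False) (fun _ _ _ h => h)
      (fun ω => Or.inr (hcov ω)) ω
  refine hdead {j // ∀ m ∈ M, x j * m = m * x j} (fun j => x j)
    (fun j => ⟨⟨hD j, hx.ne j, r j, hx.prime j, hp j j.2, hx.pow j⟩, j.2⟩) (fun i j => hx.comm i j) (fun ω => ?_)
  rcases h1 ω with h | h | ⟨j, hj, h⟩
  · exact h.elim
  · exact Or.inl h
  · exact Or.inr ⟨⟨j, hj⟩, h⟩

/-- **The end of the mixed cases**: `y` centralises `M`, the `x j` (`j ≠ i₀`) normalise `M`, together they cover. -/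
theorem finish {S ι : Type} [Group S] [Finite S] [Finite ι] (e : N ≃* S)
    (hIH : IHx (Nat.card S)) {p : ℕ} {x : ι → G} {r : ι → ℕ} (hx : PF x r) (hD : ∀ i, x i ∈ D) {i₀ : ι}
    (hrne : ∀ i, i ≠ i₀ → r i ≠ p) {M : Subgroup G} (hG : Good N M) (hdead : Dead Ω D p M) {y : G} (hy : PPr D p y)
    (hyM : ∀ m ∈ M, y * m = m * y) (hyx : ∀ i, i ≠ i₀ → y * x i = x i * y)
    (hnx : ∀ i, i ≠ i₀ → x i ∈ Subgroup.normalizer (M : Set G))
    (hcov : ∀ ω : Ω, (∃ j, j ≠ i₀ ∧ x j • ω = ω) ∨ y • ω = ω) : False := by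
  obtain ⟨S', _, _, π, hπ, hker, hNSA⟩ := hG.quot
  have hx' : PF (fun j : {j // j ≠ i₀} => x j) (fun j => r j) :=
    ⟨fun i => hx.prime i, fun i j h => Subtype.ext (hx.inj h), fun i => hx.pow i, fun i => hx.ne i,
      fun i j => hx.comm i j⟩
  have h3 : ∀ ω : Ω, y • ω = ω ∨ M ≤ stabilizer G ω ∨
      ∃ j : {j // j ≠ i₀}, (∀ m ∈ M, x j * m = m * x j) ∧ x j • ω = ω := by
    refine fun ω => mstep hIH e hG.le hG.ne hG.perf π hπ hker hNSA hx' (fun i => hnx i i.2)
      (P := fun ω => y • ω = ω) ?_ ?_ ω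
    · intro m hm ω h
      rw [← mul_smul, hyM m hm, mul_smul] at h
      exact MulAction.injective m h
    · intro ω
      rcases hcov ω with ⟨j, hj, h⟩ | h
      · exact Or.inr ⟨⟨j, hj⟩, h⟩
      · exact Or.inl h
  refine hdead (Option {j : {j // j ≠ i₀} // ∀ m ∈ M, x j * m = m * x j}) (fun o => o.elim y fun j => x j.1) ?_ ?_ ?_
  · rintro (_ | j)
    · exact ⟨hy, hyM⟩
    · exact ⟨⟨hD _, hx.ne _, r j.1, hx.prime _, hrne _ j.1.2, hx.pow _⟩, j.2⟩
  · rintro (_ | i) (_ | j)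
    · rfl
    · exact hyx j.1 j.1.2
    · exact (hyx i.1 i.1.2).symm
    · exact hx.comm i.1 j.1
  · intro ω
    rcases h3 ω with h | h | ⟨j, hj, h⟩
    · exact Or.inr ⟨none, h⟩
    · exact Or.inl h
    · exact Or.inr ⟨some ⟨j, hj⟩, h⟩

/-- **One useful member, the element of order `p` centralises `M`.** -/
theorem case_cent {S ι : Type} [Group S] [Finite S] [Finite ι] (e : N ≃* S) (hIH : IHx (Nat.card S))
    {p : ℕ} (hp : p.Prime) (hND : N ≤ D) (hpN : ∀ u ∈ D, u ^ p = 1 → u ∈ N)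
    (hB : ∀ s ∈ D, (∃ m : ℕ, m.Coprime p ∧ s ^ m = 1) → pCore p ↥(N ⊓ Subgroup.centralizer {s}) = ⊥)
    {x : ι → G} {r : ι → ℕ} (hx : PF x r) (hcov : Cov Ω x) (hD : ∀ i, x i ∈ D)
    {i₀ i₁ : ι} (hi₀ : r i₀ = p) (hi₁ : i₁ ≠ i₀) {M : Subgroup G} (hU : UsefulBy Ω N D p M (x i₁))
    (hu : ∀ m ∈ M, x i₀ * m = m * x i₀) : False := by
  classical
  have hrne : ∀ i, i ≠ i₀ → r i ≠ p := fun i hi h => hi (hx.inj (h.trans hi₀.symm))
  have huN : x i₀ ∈ N := hpN _ (hD i₀) (by rw [← hi₀]; exact hx.pow i₀)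
  let J : Set ι := {j | j ≠ i₀}
  obtain ⟨s, hsD, hsm, hsc⟩ := exists_s hx hp J (fun i hi => hrne i hi) D hD
  set C : Subgroup G := N ⊓ Subgroup.centralizer {s} with hCdef
  have hCx : ∀ c ∈ C, ∀ j ∈ J, c * x j = x j * c := fun c hc =>
    (hsc c).1 (Subgroup.mem_centralizer_singleton_iff.1 hc.2)
  set C' : Subgroup G := cop C (orderOf (x i₁)) with hC'def
  have hC'M : ∀ c ∈ C', c ∈ Subgroup.normalizer (M : Set G) := by
    have h : C' ≤ Subgroup.normalizer (M : Set G) := by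
      rw [hC'def, cop, Subgroup.closure_le]
      rintro c ⟨hc, h1⟩
      exact hU.norm c (hND hc.1) (hCx c hc i₁ hi₁) h1
    exact fun c hc => h hc
  have hC'C : C' ≤ C := cop_le _ _
  have hC'p : pCore p ↥C' = ⊥ := pCore_bot_of_normal hC'C (fun c hc z hz => cop_conj hc hz) (hB s hsD hsm)
  set F : Subgroup G := C' ⊓ Subgroup.centralizer (M : Set G) with hFdef
  have hFM : ∀ c ∈ F, ∀ m ∈ M, c * m = m * c := fun c hc m hm =>
    ((Subgroup.mem_centralizer_iff.1 hc.2) m hm).symm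
  have huC : x i₀ ∈ C := by
    refine ⟨huN, ?_⟩
    exact Subgroup.mem_centralizer_singleton_iff.2 ((hsc _).2 fun i _ => hx.comm i₀ i)
  have huF : x i₀ ∈ F := by
    refine ⟨mem_cop huC ?_, ?_⟩
    · rw [orderOf_eq_prime (hx.pow i₀) (hx.ne i₀) (hp := ⟨hx.prime i₀⟩),
        orderOf_eq_prime (hx.pow i₁) (hx.ne i₁) (hp := ⟨hx.prime i₁⟩), Nat.coprime_primes (hx.prime i₀) (hx.prime i₁)]
      exact fun h => hi₁ (hx.inj h).symm
    · exact Subgroup.mem_centralizer_iff.2 fun m hm => (hu m hm).symm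
  obtain ⟨y, hyK, hy1, t, ht, htp, hyt⟩ := exists_y (C := C') (F := F) inf_le_left hC'p (by
    intro c hc z hz
    exact ⟨C'.mul_mem (C'.mul_mem hc hz.1) (C'.inv_mem hc), Subgroup.mem_centralizer_iff.2 fun m hm =>
      (normalizer_cent (hC'M c hc) (hFM z hz) m hm).symm⟩) huF (hx.ne i₀)
  have hyF : y ∈ F := nclo_le huF hyK
  refine finish e hIH hx hD hrne hU.good hU.dead (y := y) ⟨hND (hC'C hyF.1).1, hy1, t, ht, htp, hyt⟩ (hFM y hyF)
    (fun i hi => hCx y (hC'C hyF.1) i hi) (fun i _ => norm_all hx hD hU i) (fun ω => ?_)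
  refine nclo_fix (F := F) (u := x i₀) (P := fun ω => ∃ j, j ≠ i₀ ∧ x j • ω = ω) ?_ ?_ hyK ω
  · rintro c hc ω ⟨j, hj, h⟩
    refine ⟨j, hj, ?_⟩
    rw [← mul_smul, ← hCx c (hC'C hc.1) j hj, mul_smul] at h
    exact MulAction.injective c h
  · intro ω
    obtain ⟨j, h⟩ := hcov ω
    by_cases hji : j = i₀
    · right; rw [← hji]; exact h
    · exact Or.inl ⟨j, hji, h⟩

/-- **The engine, second form.** -/
theorem engine2 {S ι : Type} [Group S] [Finite S] [Finite ι] (e : N ≃* S)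
    (hIH : IHx (Nat.card S)) {p : ℕ} (hp : p.Prime) (hND : N ≤ D) (hpN : ∀ u ∈ D, u ^ p = 1 → u ∈ N)
    (hB : ∀ s ∈ D, (∃ m : ℕ, m.Coprime p ∧ s ^ m = 1) → pCore p ↥(N ⊓ Subgroup.centralizer {s}) = ⊥)
    (hM3 : ∀ (y x : G) (t : ℕ), t.Prime → t ≠ p → y ∈ N → y ≠ 1 → y ^ t = 1 → x ∈ D → x ≠ 1 → x ^ t = 1 → y * x = x * y →
      Us Ω N D p y → ¬ Us Ω N D p x → ∃ M, UsefulBy Ω N D p M y ∧ x ∈ Subgroup.normalizer (M : Set G))
    (hS1 : ∀ (x : ι → G) (r : ι → ℕ), PF x r → (∀ i, x i ∈ D) → (∀ i, r i ≠ p) → (∀ i, ¬ Us Ω N D p (x i)) → ¬ Cov Ω x)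
    (hS2 : ∀ (x : ι → G) (r : ι → ℕ) (i₀ : ι), PF x r → (∀ i, x i ∈ D) → r i₀ = p → x i₀ ∈ N →
      (∀ i, i ≠ i₀ → ¬ Us Ω N D p (x i)) →
      (∀ y ∈ nclo (N ⊓ ⨅ i : {i // i ≠ i₀}, Subgroup.centralizer {x i}) (x i₀), PPr D p y → ¬ Us Ω N D p y) →
      ¬ Cov Ω x)
    {x : ι → G} {r : ι → ℕ} (hx : PF x r) (hcov : Cov Ω x) (hD : ∀ i, x i ∈ D) : False := by
  classical
  by_cases hpi : ∃ i, r i = p
  · obtain ⟨i₀, hi₀⟩ := hpi
    have hrne : ∀ i, i ≠ i₀ → r i ≠ p := fun i hi h => hi (hx.inj (h.trans hi₀.symm))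
    have huN : x i₀ ∈ N := hpN _ (hD i₀) (by rw [← hi₀]; exact hx.pow i₀)
    by_cases hU : ∃ i, i ≠ i₀ ∧ Us Ω N D p (x i)
    · obtain ⟨i₁, hi₁, M, hM⟩ := hU
      by_cases hu : ∀ m ∈ M, x i₀ * m = m * x i₀
      · exact case_cent e hIH hp hND hpN hB hx hcov hD hi₀ hi₁ hM hu
      · exact case_drop e hIH hx hcov hD hM.good hM.dead (norm_all hx hD hM)
          fun i hi => hrne i fun h => hu (by rw [← h]; exact hi)
    · push Not at hU
      by_contra _
      refine hS2 x r i₀ hx hD hi₀ huN hU (fun y hyK hyP hyU => ?_) hcov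
      set C : Subgroup G := N ⊓ ⨅ i : {i // i ≠ i₀}, Subgroup.centralizer {x i} with hCdef
      have hCx : ∀ c ∈ C, ∀ j, j ≠ i₀ → c * x j = x j * c := fun c hc j hj =>
        Subgroup.mem_centralizer_singleton_iff.1 ((Subgroup.mem_iInf.1 hc.2) ⟨j, hj⟩)
      have huC : x i₀ ∈ C := ⟨huN, Subgroup.mem_iInf.2 fun j => Subgroup.mem_centralizer_singleton_iff.2 (hx.comm i₀ j)⟩
      have hyC : y ∈ C := nclo_le huC hyK
      obtain ⟨-, hy1, t, ht, htp, hyt⟩ := id hyP
      have h2 : ∀ ω : Ω, (∃ j, j ≠ i₀ ∧ x j • ω = ω) ∨ y • ω = ω := by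
        refine fun ω => nclo_fix (F := C) (u := x i₀) (P := fun ω => ∃ j, j ≠ i₀ ∧ x j • ω = ω) ?_ ?_ hyK ω
        · rintro c hc ω ⟨j, hj, h⟩
          refine ⟨j, hj, ?_⟩
          rw [← mul_smul, ← hCx c hc j hj, mul_smul] at h
          exact MulAction.injective c h
        · intro ω
          obtain ⟨j, h⟩ := hcov ω
          by_cases hji : j = i₀
          · right; rw [← hji]; exact h
          · exact Or.inl ⟨j, hji, h⟩
      by_cases hti : ∃ i₁, i₁ ≠ i₀ ∧ r i₁ = t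
      · obtain ⟨i₁, hi₁, hrt⟩ := hti
        obtain ⟨M, hM, hx1⟩ := hM3 y (x i₁) t ht htp hyC.1 hy1 hyt (hD i₁) (hx.ne i₁) (by rw [← hrt]; exact hx.pow i₁)
          (hCx y hyC i₁ hi₁) hyU (hU i₁ hi₁)
        refine finish e hIH hx hD hrne hM.good hM.dead hyP hM.cent (fun i hi => hCx y hyC i hi) (fun i hi => ?_) h2
        by_cases h : i = i₁
        · rw [h]; exact hx1
        · refine hM.norm _ (hD i) (hCx y hyC i hi).symm ?_
          rw [orderOf_eq_prime (hx.pow i) (hx.ne i) (hp := ⟨hx.prime i⟩), orderOf_eq_prime hyt hy1 (hp := ⟨ht⟩),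
            Nat.coprime_primes (hx.prime i) ht, ← hrt]
          exact fun h' => h (hx.inj h')
      · push Not at hti
        obtain ⟨M, hM⟩ := hyU
        refine finish e hIH hx hD hrne hM.good hM.dead hyP hM.cent (fun i hi => hCx y hyC i hi) (fun i hi => ?_) h2
        refine hM.norm _ (hD i) (hCx y hyC i hi).symm ?_
        rw [orderOf_eq_prime (hx.pow i) (hx.ne i) (hp := ⟨hx.prime i⟩), orderOf_eq_prime hyt hy1 (hp := ⟨ht⟩),
          Nat.coprime_primes (hx.prime i) ht]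
        exact hti i hi
  · push Not at hpi
    by_cases hU : ∃ i, Us Ω N D p (x i)
    · obtain ⟨i₁, M, hM⟩ := hU
      exact case_drop e hIH hx hcov hD hM.good hM.dead (norm_all hx hD hM) fun i _ => hpi i
    · push Not at hU
      exact hS1 x r hx hD hpi hU hcov

/-- **The engine, second form, with one numerical input.** -/
theorem engine2_one {S ι : Type} [Group S] [Finite S] [Finite ι] (e : N ≃* S)
    (hIH : IHx (Nat.card S)) {p : ℕ} (hp : p.Prime) (hND : N ≤ D) (hpN : ∀ u ∈ D, u ^ p = 1 → u ∈ N)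
    (hB : ∀ s ∈ D, (∃ m : ℕ, m.Coprime p ∧ s ^ m = 1) → pCore p ↥(N ⊓ Subgroup.centralizer {s}) = ⊥)
    (hM3 : ∀ (y x : G) (t : ℕ), t.Prime → t ≠ p → y ∈ N → y ≠ 1 → y ^ t = 1 → x ∈ D → x ≠ 1 → x ^ t = 1 → y * x = x * y →
      Us Ω N D p y → ¬ Us Ω N D p x → ∃ M, UsefulBy Ω N D p M y ∧ x ∈ Subgroup.normalizer (M : Set G))
    (hS : ∀ z : ι → G, (∀ i, PPr D p (z i) ∧ ¬ Us Ω N D p (z i)) → (∀ i j, z i * z j = z j * z i) → ¬ Cov Ω z)
    {x : ι → G} {r : ι → ℕ} (hx : PF x r) (hcov : Cov Ω x) (hD : ∀ i, x i ∈ D) : False := by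
  classical
  refine engine2 e hIH hp hND hpN hB hM3 ?_ ?_ hx hcov hD
  · intro x r hx hD hrp hU
    exact hS x (fun i => ⟨⟨hD i, hx.ne i, r i, hx.prime i, hrp i, hx.pow i⟩, hU i⟩) hx.comm
  · intro x r i₀ hx hD hi₀ huN hU hyU hcov
    have hrne : ∀ i, i ≠ i₀ → r i ≠ p := fun i hi h => hi (hx.inj (h.trans hi₀.symm))
    obtain ⟨s, hsD, hsm, hsc⟩ := exists_s hx hp {i | i ≠ i₀} (fun i hi => hrne i hi) D hD
    set C : Subgroup G := N ⊓ ⨅ i : {i // i ≠ i₀}, Subgroup.centralizer {x i} with hCdef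
    have hCs : C = N ⊓ Subgroup.centralizer {s} := by
      ext c
      rw [hCdef, Subgroup.mem_inf, Subgroup.mem_inf, Subgroup.mem_iInf, Subgroup.mem_centralizer_singleton_iff, hsc]
      refine and_congr Iff.rfl ⟨fun h i hi => Subgroup.mem_centralizer_singleton_iff.1 (h ⟨i, hi⟩),
        fun h i => Subgroup.mem_centralizer_singleton_iff.2 (h i i.2)⟩
    have hCx : ∀ c ∈ C, ∀ j, j ≠ i₀ → c * x j = x j * c := fun c hc j hj =>
      Subgroup.mem_centralizer_singleton_iff.1 ((Subgroup.mem_iInf.1 hc.2) ⟨j, hj⟩)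
    have huC : x i₀ ∈ C := ⟨huN, Subgroup.mem_iInf.2 fun j => Subgroup.mem_centralizer_singleton_iff.2 (hx.comm i₀ j)⟩
    obtain ⟨y, hyK, hy1, t, ht, htp, hyt⟩ := exists_y (C := C) (F := C) le_rfl (by rw [hCs]; exact hB s hsD hsm)
      (fun c hc z hz => C.mul_mem (C.mul_mem hc hz) (C.inv_mem hc)) huC (hx.ne i₀)
    have hyC : y ∈ C := nclo_le huC hyK
    have hyP : PPr D p y := ⟨hND hyC.1, hy1, t, ht, htp, hyt⟩
    refine hS (Function.update x i₀ y) (fun i => ?_) (fun i j => ?_) (fun ω => ?_)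
    · by_cases hi : i = i₀
      · subst hi
        rw [Function.update_self]
        exact ⟨hyP, hyU y hyK hyP⟩
      · rw [Function.update_of_ne hi]
        exact ⟨⟨hD i, hx.ne i, r i, hx.prime i, hrne i hi, hx.pow i⟩, hU i hi⟩
    · by_cases hi : i = i₀ <;> by_cases hj : j = i₀
      · rw [hi, hj]
      · rw [hi, Function.update_self, Function.update_of_ne hj]
        exact hCx y hyC j hj
      · rw [hj, Function.update_self, Function.update_of_ne hi]
        exact (hCx y hyC i hi).symm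
      · rw [Function.update_of_ne hi, Function.update_of_ne hj]
        exact hx.comm i j
    · have h2 : (∃ j, j ≠ i₀ ∧ x j • ω = ω) ∨ y • ω = ω := by
        refine nclo_fix (F := C) (u := x i₀) (P := fun ω => ∃ j, j ≠ i₀ ∧ x j • ω = ω) ?_ ?_ hyK ω
        · rintro c hc ω ⟨j, hj, h⟩
          refine ⟨j, hj, ?_⟩
          rw [← mul_smul, ← hCx c hc j hj, mul_smul] at h
          exact MulAction.injective c h
        · intro ω
          obtain ⟨j, h⟩ := hcov ω
          by_cases hji : j = i₀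
          · right; rw [← hji]; exact h
          · exact Or.inl ⟨j, hji, h⟩
      rcases h2 with ⟨j, hj, h⟩ | h
      · exact ⟨j, by rwa [Function.update_of_ne hj]⟩
      · exact ⟨i₀, by rwa [Function.update_self]⟩

end abs

end Cfsg.Agent.H368.RG
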