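import Cfsg.Agent.H368.RG.Engine2

/-!
# S3509: the engine, third form (helper368)

* `dead_one` : `C_D(M) ≤ ⟨y⟩`, `1 ≠ v ∈ M`, `v ∈ [U, y]`, `U` commutes with `v`;
* `engine3` : `engine2` with the primes of the members kept (all but one), and a class `X` of elements which are
  excluded separately (`hX` : no member of a cover; `hX2` : not in the normal closure of the member of order `p`).
* `kill_mixed` : a mixed cover, `v` a long root element commuting with all members of order `≠ p`, and an element of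
  prime order `≠ p` of the normal closure `K` commuting with `v`, or `x i₀` a long root element, or `v ∈ K`.
-/

set_option autoImplicit false
open Cfsg

namespace Cfsg.Agent.H368.RG

open MulAction Cfsg.Agent.H106.RC Cfsg.Agent.H380.RC Cfsg.Agent.H873.RG

section abs

variable {G Ω : Type} [Group G] [Finite G] [MulAction G Ω] {N D : Subgroup G}

omit [Finite G] in
/-- every element of prime order of `⟨y⟩`, `y` of prime order, generates `⟨y⟩` -/
theorem mem_zpowers_prime {y z : G} {t : ℕ} (ht : t.Prime) (hyt : y ^ t = 1) (hy1 : y ≠ 1)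
    (hz : z ∈ Subgroup.zpowers y) (hz1 : z ≠ 1) : y ∈ Subgroup.zpowers z := by
  have hyo : orderOf y = t := orderOf_eq_prime hyt hy1 (hp := ⟨ht⟩)
  have hp : Fact (Nat.card (Subgroup.zpowers y)).Prime := ⟨by rw [Nat.card_zpowers, hyo]; exact ht⟩
  have h4 : (⟨z, hz⟩ : Subgroup.zpowers y) ≠ 1 := fun h => hz1 (congrArg Subtype.val h)
  have h5 := mem_zpowers_of_prime_card (p := Nat.card (Subgroup.zpowers y)) (g := (⟨z, hz⟩ : Subgroup.zpowers y))
    (g' := ⟨y, Subgroup.mem_zpowers y⟩) rfl h4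
  obtain ⟨a, ha⟩ := Subgroup.mem_zpowers_iff.1 h5
  refine Subgroup.mem_zpowers_iff.2 ⟨a, ?_⟩
  have := congrArg Subtype.val ha
  simpa using this

omit [Finite G] in
/-- `C_D(M) ≤ ⟨y⟩` and the rule for one element -/
theorem dead_one [Nonempty Ω] (hE : Env G Ω N) {p : ℕ} {M : Subgroup G} {y : G} {t : ℕ} (ht : t.Prime) (hyt : y ^ t = 1)
    (hy1 : y ≠ 1) (hc : ∀ z ∈ D, (∀ m ∈ M, z * m = m * z) → z ∈ Subgroup.zpowers y) {v : G} (hvM : v ∈ M) (hv : v ≠ 1)
    {U : Subgroup G} (hU : ∀ u ∈ U, u * v = v * u) (hvU : v ∈ cmm U y) : Dead Ω D p M := by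
  intro κ _ z hz _ hcov
  refine not_cov_one hE (x := y) (y := v) (U := U) (fun ω => ?_) hU hv hvU
  rcases hcov ω with h | ⟨k, hk⟩
  · exact Or.inl (h hvM)
  · right
    have h1 : z k ∈ stabilizer G ω := hk
    have h2 : Subgroup.zpowers (z k) ≤ stabilizer G ω := by rwa [Subgroup.zpowers_le]
    exact h2 (mem_zpowers_prime ht hyt hy1 (hc _ (hz k).1.1 (hz k).2) (hz k).1.2.1)

/-- the normal closure of the member `i₀` in the centraliser of the other members -/
def KK {ι : Type} (N : Subgroup G) (x : ι → G) (i₀ : ι) : Subgroup G :=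
  nclo (N ⊓ ⨅ i : {i // i ≠ i₀}, Subgroup.centralizer {x i}) (x i₀)

omit [Finite G] in
theorem KK_comm {ι : Type} {x : ι → G} {i₀ : ι} (hN : x i₀ ∈ N) (hc : ∀ i, x i₀ * x i = x i * x i₀) {y : G}
    (hy : y ∈ KK N x i₀) {i : ι} (hi : i ≠ i₀) : y * x i = x i * y := by
  have huC : x i₀ ∈ N ⊓ ⨅ i : {i // i ≠ i₀}, Subgroup.centralizer {x i} :=
    ⟨hN, Subgroup.mem_iInf.2 fun j => Subgroup.mem_centralizer_singleton_iff.2 (hc j)⟩
  exact Subgroup.mem_centralizer_singleton_iff.1 ((Subgroup.mem_iInf.1 (nclo_le huC hy).2) ⟨i, hi⟩)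

omit [Finite G] in
theorem KK_le {ι : Type} {x : ι → G} {i₀ : ι} (hN : x i₀ ∈ N) (hc : ∀ i, x i₀ * x i = x i * x i₀) :
    KK N x i₀ ≤ N := by
  have huC : x i₀ ∈ N ⊓ ⨅ i : {i // i ≠ i₀}, Subgroup.centralizer {x i} :=
    ⟨hN, Subgroup.mem_iInf.2 fun j => Subgroup.mem_centralizer_singleton_iff.2 (hc j)⟩
  exact fun y hy => (nclo_le huC hy).1

omit [Finite G] in
/-- every point fixed by no other member is fixed by `K` -/
theorem KK_cov {ι : Type} {x : ι → G} {i₀ : ι} (hcov : Cov Ω x) {y : G} (hy : y ∈ KK N x i₀) (ω : Ω) :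
    (∃ j, j ≠ i₀ ∧ x j • ω = ω) ∨ y • ω = ω := by
  have hCx : ∀ c ∈ N ⊓ ⨅ i : {i // i ≠ i₀}, Subgroup.centralizer {x i}, ∀ j, j ≠ i₀ → c * x j = x j * c :=
    fun c hc j hj => Subgroup.mem_centralizer_singleton_iff.1 ((Subgroup.mem_iInf.1 hc.2) ⟨j, hj⟩)
  refine nclo_fix (F := _) (u := x i₀) (P := fun ω => ∃ j, j ≠ i₀ ∧ x j • ω = ω) ?_ ?_ hy ω
  · rintro c hc ω ⟨j, hj, h⟩
    refine ⟨j, hj, ?_⟩
    rw [← mul_smul, ← hCx c hc j hj, mul_smul] at h
    exact MulAction.injective c h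
  · intro ω
    obtain ⟨j, h⟩ := hcov ω
    by_cases hji : j = i₀
    · right; rw [← hji]; exact h
    · exact Or.inl ⟨j, hji, h⟩

/-- **Kill of a mixed cover** by a long root element `v` commuting with all members of order `≠ p`: if `v ∈ K`, or some
element of prime order `≠ p` of `K` commutes with `v`. (If `x i₀` is a long root element: `v := x i₀`.) -/
theorem kill_mixed [Nonempty Ω] {ι : Type} [Finite ι] (hE : Env G Ω N) {p : ℕ} {V : G → Prop}
    {U : G → Subgroup G} (hL : LRData D p V U) {x : ι → G} {r : ι → ℕ} (hx : PF x r) (hcov : Cov Ω x)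
    (hD : ∀ i, x i ∈ D) {i₀ : ι} (hi₀ : r i₀ = p) (huN : x i₀ ∈ N) {v : G} (hv : V v)
    (hxv : ∀ i, i ≠ i₀ → x i * v = v * x i)
    (h : v ∈ KK N x i₀ ∨ ∃ y ∈ KK N x i₀, PPr D p y ∧ y * v = v * y) : False := by
  classical
  have hrne : ∀ i, i ≠ i₀ → r i ≠ p := fun i hi h => hi (hx.inj (h.trans hi₀.symm))
  rcases h with h | ⟨y, hy, hyP, hyv⟩
  · refine kill_lr hE hL hv (ι := {i // i ≠ i₀}) (x := fun i => x i) (r := fun i => r i) (fun i => hD i)
      (fun i => hx.ne i) (fun i => hx.prime i) (fun i => hrne i i.2) (fun i => hx.pow i) (fun i j => hx.comm i j)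
      (fun i => hxv i i.2) (fun ω => ?_)
    rcases KK_cov hcov h ω with ⟨j, hj, h1⟩ | h1
    · exact Or.inr ⟨⟨j, hj⟩, h1⟩
    · exact Or.inl h1
  · obtain ⟨hyD, hy1, t, ht, htp, hyt⟩ := hyP
    refine kill_lr hE hL hv (ι := Option {i // i ≠ i₀}) (x := fun o => o.elim y fun i => x i)
      (r := fun o => o.elim t fun i => r i) ?_ ?_ ?_ ?_ ?_ ?_ ?_ ?_
    · rintro (_ | j)
      · exact hyD
      · exact hD j
    · rintro (_ | j)
      · exact hy1
      · exact hx.ne j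
    · rintro (_ | j)
      · exact ht
      · exact hx.prime j
    · rintro (_ | j)
      · exact htp
      · exact hrne j j.2
    · rintro (_ | j)
      · exact hyt
      · exact hx.pow j
    · rintro (_ | i) (_ | j)
      · rfl
      · exact KK_comm huN (fun i => hx.comm i₀ i) hy j.2
      · exact (KK_comm huN (fun i => hx.comm i₀ i) hy i.2).symm
      · exact hx.comm i j
    · rintro (_ | j)
      · exact hyv
      · exact hxv j j.2
    · intro ω
      right
      rcases KK_cov hcov hy ω with ⟨j, hj, h1⟩ | h1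
      · exact ⟨some ⟨j, hj⟩, h1⟩
      · exact ⟨none, h1⟩

/-- **The engine, third form.** -/
theorem engine3 [Nonempty Ω] {S ι : Type} [Group S] [Finite S] [Finite ι] (e : N ≃* S)
    (hIH : IHx (Nat.card S)) {p : ℕ} (hp : p.Prime) (hND : N ≤ D) (hpN : ∀ u ∈ D, u ^ p = 1 → u ∈ N)
    (hB : ∀ s ∈ D, (∃ m : ℕ, m.Coprime p ∧ s ^ m = 1) → pCore p ↥(N ⊓ Subgroup.centralizer {s}) = ⊥)
    (hM3 : ∀ (y x : G) (t : ℕ), t.Prime → t ≠ p → y ∈ N → y ≠ 1 → y ^ t = 1 → x ∈ D → x ≠ 1 → x ^ t = 1 → y * x = x * y →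
      Us Ω N D p y → ¬ Us Ω N D p x → ∃ M, UsefulBy Ω N D p M y ∧ x ∈ Subgroup.normalizer (M : Set G))
    {X : G → Prop}
    {x : ι → G} {r : ι → ℕ} (hx : PF x r) (hcov : Cov Ω x) (hD : ∀ i, x i ∈ D)
    (hX : (∀ i, r i ≠ p → ¬ Us Ω N D p (x i)) → ∀ i, r i ≠ p → ¬ X (x i))
    (hX2 : ∀ i₀, r i₀ = p → x i₀ ∈ N → (∀ i, i ≠ i₀ → ¬ Us Ω N D p (x i)) → (∀ i, i ≠ i₀ → ¬ X (x i)) →
      (∀ y ∈ KK N x i₀, PPr D p y → ¬ Us Ω N D p y) → ∀ y ∈ KK N x i₀, PPr D p y → ¬ X y)
    (hS : ∀ (z : ι → G) (i₀ : ι), (∀ i, PPr D p (z i) ∧ ¬ Us Ω N D p (z i) ∧ ¬ X (z i)) →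
      (∀ i j, z i * z j = z j * z i) → (∀ i, i ≠ i₀ → z i ^ r i = 1) → ¬ Cov Ω z) : False := by
  classical
  by_cases hpi : ∃ i, r i = p
  · obtain ⟨i₀, hi₀⟩ := hpi
    have hrne : ∀ i, i ≠ i₀ → r i ≠ p := fun i hi h => hi (hx.inj (h.trans hi₀.symm))
    have huN : x i₀ ∈ N := hpN _ (hD i₀) (by rw [← hi₀]; exact hx.pow i₀)
    have hKx : ∀ y ∈ KK N x i₀, ∀ i, i ≠ i₀ → y * x i = x i * y := fun y hy i hi =>
      KK_comm huN (fun i => hx.comm i₀ i) hy hi
    by_cases hU : ∃ i, i ≠ i₀ ∧ Us Ω N D p (x i)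
    · obtain ⟨i₁, hi₁, M, hM⟩ := hU
      by_cases hu : ∀ m ∈ M, x i₀ * m = m * x i₀
      · exact case_cent e hIH hp hND hpN hB hx hcov hD hi₀ hi₁ hM hu
      · exact case_drop e hIH hx hcov hD hM.good hM.dead (norm_all hx hD hM)
          fun i hi => hrne i fun h => hu (by rw [← h]; exact hi)
    push Not at hU
    -- no useful member
    have hKU : ∀ y ∈ KK N x i₀, PPr D p y → ¬ Us Ω N D p y := by
      intro y hyK hyP hyU
      obtain ⟨-, hy1, t, ht, htp, hyt⟩ := id hyP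
      have hyN : y ∈ N := KK_le huN (fun i => hx.comm i₀ i) hyK
      have h2 : ∀ ω : Ω, (∃ j, j ≠ i₀ ∧ x j • ω = ω) ∨ y • ω = ω := KK_cov hcov hyK
      by_cases hti : ∃ i₁, i₁ ≠ i₀ ∧ r i₁ = t
      · obtain ⟨i₁, hi₁, hrt⟩ := hti
        obtain ⟨M, hM, hx1⟩ := hM3 y (x i₁) t ht htp hyN hy1 hyt (hD i₁) (hx.ne i₁) (by rw [← hrt]; exact hx.pow i₁)
          (hKx y hyK i₁ hi₁) hyU (hU i₁ hi₁)
        refine finish e hIH hx hD hrne hM.good hM.dead hyP hM.cent (fun i hi => hKx y hyK i hi) (fun i hi => ?_) h2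
        by_cases h : i = i₁
        · rw [h]; exact hx1
        · refine hM.norm _ (hD i) (hKx y hyK i hi).symm ?_
          rw [orderOf_eq_prime (hx.pow i) (hx.ne i) (hp := ⟨hx.prime i⟩), orderOf_eq_prime hyt hy1 (hp := ⟨ht⟩),
            Nat.coprime_primes (hx.prime i) ht, ← hrt]
          exact fun h' => h (hx.inj h')
      · push Not at hti
        obtain ⟨M, hM⟩ := hyU
        refine finish e hIH hx hD hrne hM.good hM.dead hyP hM.cent (fun i hi => hKx y hyK i hi) (fun i hi => ?_) h2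
        refine hM.norm _ (hD i) (hKx y hyK i hi).symm ?_
        rw [orderOf_eq_prime (hx.pow i) (hx.ne i) (hp := ⟨hx.prime i⟩), orderOf_eq_prime hyt hy1 (hp := ⟨ht⟩),
          Nat.coprime_primes (hx.prime i) ht]
        exact hti i hi
    have hXx : ∀ i, i ≠ i₀ → ¬ X (x i) := fun i hi => by
      refine hX (fun j hj => hU j fun h => hj (by rw [h]; exact hi₀)) i (hrne i hi)
    have hXy := hX2 i₀ hi₀ huN hU hXx hKU
    obtain ⟨s, hsD, hsm, hsc⟩ := exists_s hx hp {i | i ≠ i₀} (fun i hi => hrne i hi) D hD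
    set C : Subgroup G := N ⊓ ⨅ i : {i // i ≠ i₀}, Subgroup.centralizer {x i} with hCdef
    have hCs : C = N ⊓ Subgroup.centralizer {s} := by
      ext c
      rw [hCdef, Subgroup.mem_inf, Subgroup.mem_inf, Subgroup.mem_iInf, Subgroup.mem_centralizer_singleton_iff, hsc]
      refine and_congr Iff.rfl ⟨fun h i hi => Subgroup.mem_centralizer_singleton_iff.1 (h ⟨i, hi⟩),
        fun h i => Subgroup.mem_centralizer_singleton_iff.2 (h i i.2)⟩
    have huC : x i₀ ∈ C := ⟨huN, Subgroup.mem_iInf.2 fun j => Subgroup.mem_centralizer_singleton_iff.2 (hx.comm i₀ j)⟩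
    obtain ⟨y, hyK, hy1, t, ht, htp, hyt⟩ := exists_y (C := C) (F := C) le_rfl (by rw [hCs]; exact hB s hsD hsm)
      (fun c hc z hz => C.mul_mem (C.mul_mem hc hz) (C.inv_mem hc)) huC (hx.ne i₀)
    have hyK' : y ∈ KK N x i₀ := hyK
    have hyP : PPr D p y := ⟨hND (nclo_le huC hyK).1, hy1, t, ht, htp, hyt⟩
    refine hS (Function.update x i₀ y) i₀ (fun i => ?_) (fun i j => ?_) (fun i hi => ?_) (fun ω => ?_)
    · by_cases hi : i = i₀
      · subst hi
        rw [Function.update_self]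
        exact ⟨hyP, hKU y hyK' hyP, hXy y hyK' hyP⟩
      · rw [Function.update_of_ne hi]
        exact ⟨⟨hD i, hx.ne i, r i, hx.prime i, hrne i hi, hx.pow i⟩, hU i hi, hXx i hi⟩
    · by_cases hi : i = i₀ <;> by_cases hj : j = i₀
      · rw [hi, hj]
      · rw [hi, Function.update_self, Function.update_of_ne hj]
        exact hKx y hyK' j hj
      · rw [hj, Function.update_self, Function.update_of_ne hi]
        exact (hKx y hyK' i hi).symm
      · rw [Function.update_of_ne hi, Function.update_of_ne hj]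
        exact hx.comm i j
    · rw [Function.update_of_ne hi]
      exact hx.pow i
    · rcases KK_cov hcov hyK' ω with ⟨j, hj, h⟩ | h
      · exact ⟨j, by rwa [Function.update_of_ne hj]⟩
      · exact ⟨i₀, by rwa [Function.update_self]⟩
  · push Not at hpi
    by_cases hU : ∃ i, Us Ω N D p (x i)
    · obtain ⟨i₁, M, hM⟩ := hU
      exact case_drop e hIH hx hcov hD hM.good hM.dead (norm_all hx hD hM) fun i _ => hpi i
    · push Not at hU
      have hXx := hX fun i _ => hU i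
      obtain ⟨i₀, -⟩ := hcov (Classical.arbitrary Ω)
      exact hS x i₀ (fun i => ⟨⟨hD i, hx.ne i, r i, hx.prime i, hpi i, hx.pow i⟩, hU i, hXx i (hpi i)⟩) hx.comm
        (fun i _ => hx.pow i) hcov

end abs

end Cfsg.Agent.H368.RG
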