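import Cfsg.Agent.H368.RG.Engine3
import Cfsg.Agent.H380.RG.RuleY

/-!
# S3509: mixed covers, abstract part (helper368)

`w : κ → G` : the members of order prime to `p`.  `RR Ω w` : the pointwise stabiliser of the set of points fixed by no
`w k`.

* `mem_RR`, `RR_conj` (normalised by the elements commuting with all `w k`), `KK_le_RR`, `not_le_RR`;
* `mix_v`, `mix_lr` : no long root element of `RR` commutes with all `w k`;
* `mix_Y` : `[U, y] ≤ RR` for `y ∈ RR` commuting with the `w k`, `U` normalised by `y` and the `w k`;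
* `mix_end` : `[U⁺, y] = U⁺`, `[U⁻, y] = U⁻`, `N ≤ ⟨U⁺, U⁻⟩` is impossible; `cmm_of_noFix` : `C_U(y) = 1` gives
  `[U, y] = U`.
-/

set_option autoImplicit false
open Cfsg

namespace Cfsg.Agent.H368.RG

open MulAction Cfsg.Agent.H106.RC Cfsg.Agent.H380.RC Cfsg.Agent.H873.RG Cfsg.Agent.H380.RG

section mix

variable {G Ω κ : Type} [Group G] [MulAction G Ω] {N D : Subgroup G}

/-- the pointwise stabiliser of the points fixed by no `w k` -/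
def RR (Ω : Type) [MulAction G Ω] (w : κ → G) : Subgroup G :=
  ⨅ ω : {ω : Ω // ∀ k, w k • ω ≠ ω}, stabilizer G (ω : Ω)

theorem mem_RR {w : κ → G} {g : G} : g ∈ RR Ω w ↔ ∀ ω : Ω, (∀ k, w k • ω ≠ ω) → g • ω = ω := by
  rw [RR, Subgroup.mem_iInf]
  exact ⟨fun h ω hω => h ⟨ω, hω⟩, fun h ω => h ω.1 ω.2⟩

theorem le_RR {w : κ → G} {H : Subgroup G} : H ≤ RR Ω w ↔ ∀ ω : Ω, (∀ k, w k • ω ≠ ω) → H ≤ stabilizer G ω :=
  ⟨fun h ω hω _ hz => mem_RR.1 (h hz) ω hω, fun h _ hz => mem_RR.2 fun ω hω => h ω hω hz⟩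

theorem RR_conj {w : κ → G} {c z : G} (hc : ∀ k, c * w k = w k * c) (hz : z ∈ RR Ω w) : c * z * c⁻¹ ∈ RR Ω w := by
  rw [mem_RR] at hz ⊢
  intro ω hω
  have h1 : z • c⁻¹ • ω = c⁻¹ • ω := by
    refine hz _ fun k hk => hω k ?_
    have h2 : w k * c⁻¹ = c⁻¹ * w k := by
      have := hc k
      calc w k * c⁻¹ = c⁻¹ * (c * w k) * c⁻¹ := by group
        _ = c⁻¹ * w k := by rw [this]; group
    rw [← mul_smul, h2, mul_smul] at hk
    exact MulAction.injective c⁻¹ hk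
  rw [mul_smul, mul_smul, h1, smul_inv_smul]

/-- every point is fixed by `z ∈ RR` or by some `w k` -/
theorem RR_cov {w : κ → G} {z : G} (hz : z ∈ RR Ω w) (ω : Ω) : z • ω = ω ∨ ∃ k, w k • ω = ω := by
  by_cases h : ∃ k, w k • ω = ω
  · exact Or.inr h
  · exact Or.inl (mem_RR.1 hz ω fun k hk => h ⟨k, hk⟩)

/-- the normal closure of the member of order `p` -/
theorem KK_le_RR {ι : Type} {x : ι → G} {i₀ : ι} (hcov : Cov Ω x) : KK N x i₀ ≤ RR Ω (fun i : {i // i ≠ i₀} => x i) := by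
  intro y hy
  rw [mem_RR]
  intro ω hω
  rcases KK_cov hcov hy ω with ⟨j, hj, h⟩ | h
  · exact absurd h (hω ⟨j, hj⟩)
  · exact h

theorem not_le_RR (hE : Env G Ω N) {w : κ → G} (hreg : ¬ Cov Ω w) : ¬ N ≤ RR Ω w := by
  intro h
  rw [Cov] at hreg
  push Not at hreg
  obtain ⟨ω, hω⟩ := hreg
  exact hE.nofix ω (le_RR.1 h ω hω)

/-- **Rule LR**, general form. -/
theorem mix_v [Finite κ] [Nonempty Ω] (hE : Env G Ω N) {w : κ → G} {r : κ → ℕ} (hr : ∀ k, (r k).Prime)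
    (hw : ∀ k, w k ^ r k = 1) (hc : ∀ k l, w k * w l = w l * w k) {U : Subgroup G} [Finite U] {v : G}
    (hv : v ∈ RR Ω w) (hv1 : v ≠ 1)
    (hU : ∀ k, ∀ u ∈ U, w k * u * (w k)⁻¹ ∈ U) (hUn : Group.IsNilpotent U) (hUr : ∀ k, (r k).Coprime (Nat.card U))
    (hvU : ∀ u ∈ U, u * v = v * u) (hvm : ∀ k, v ∈ cmm U (w k)) : False :=
  not_cov_lr hE hr hw hc (RR_cov hv) hU hUn hUr hvU hv1 hvm

/-- **Rule LR.** -/
theorem mix_lr [Finite G] [Finite κ] [Nonempty Ω] (hE : Env G Ω N) {p : ℕ} {V : G → Prop} {U : G → Subgroup G}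
    (hL : LRData D p V U) {w : κ → G} {r : κ → ℕ} (hD : ∀ k, w k ∈ D) (h1 : ∀ k, w k ≠ 1) (hr : ∀ k, (r k).Prime)
    (hrp : ∀ k, r k ≠ p) (hw : ∀ k, w k ^ r k = 1) (hc : ∀ k l, w k * w l = w l * w k) {v : G} (hV : V v)
    (hv : v ∈ RR Ω w) (hwv : ∀ k, w k * v = v * w k) : False :=
  kill_lr hE hL hV hD h1 hr hrp hw hc hwv (RR_cov hv)

/-- **Rule Y+.** -/
theorem mix_Y [Finite G] {w : κ → G} {y : G} (hc : ∀ k l, w k * w l = w l * w k) (hy : y ∈ RR Ω w)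
    (hyc : ∀ k, y * w k = w k * y) {U : Subgroup G} (hU : ∀ k, ∀ u ∈ U, w k * u * (w k)⁻¹ ∈ U)
    (hyU : ∀ u ∈ U, y * u * y⁻¹ ∈ U) (hUn : Group.IsNilpotent U) (hUw : ∀ k, (orderOf (w k)).Coprime (Nat.card U))
    (hUy : (orderOf y).Coprime (Nat.card U)) : cmm U y ≤ RR Ω w :=
  le_RR.2 fun _ hω => ruleY hc hyc hU hyU hUn hUw hUy (fun ω hω => mem_RR.1 hy ω hω) hω

/-- **The end of the mixed case.** -/
theorem mix_end [Finite G] (hE : Env G Ω N) {w : κ → G} (hreg : ¬ Cov Ω w) {y : G} (hc : ∀ k l, w k * w l = w l * w k)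
    (hy : y ∈ RR Ω w) (hyc : ∀ k, y * w k = w k * y) {U U' : Subgroup G}
    (hU : ∀ k, ∀ u ∈ U, w k * u * (w k)⁻¹ ∈ U) (hyU : ∀ u ∈ U, y * u * y⁻¹ ∈ U) (hUn : Group.IsNilpotent U)
    (hUw : ∀ k, (orderOf (w k)).Coprime (Nat.card U)) (hUy : (orderOf y).Coprime (Nat.card U)) (hUc : U ≤ cmm U y)
    (hU' : ∀ k, ∀ u ∈ U', w k * u * (w k)⁻¹ ∈ U') (hyU' : ∀ u ∈ U', y * u * y⁻¹ ∈ U') (hUn' : Group.IsNilpotent U')
    (hUw' : ∀ k, (orderOf (w k)).Coprime (Nat.card U')) (hUy' : (orderOf y).Coprime (Nat.card U'))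
    (hUc' : U' ≤ cmm U' y) (hN : N ≤ U ⊔ U') : False := by
  refine not_le_RR hE hreg (hN.trans (sup_le (hUc.trans ?_) (hUc'.trans ?_)))
  · exact mix_Y hc hy hyc hU hyU hUn hUw hUy
  · exact mix_Y hc hy hyc hU' hyU' hUn' hUw' hUy'

/-- an automorphism without fixed points: `[U, y] = U` -/
theorem cmm_of_noFix {U : Subgroup G} [Finite U] {y : G} (hyU : ∀ u ∈ U, y * u * y⁻¹ ∈ U)
    (hfix : ∀ u ∈ U, y * u = u * y → u = 1) : U ≤ cmm U y := by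
  let f : U → U := fun u => ⟨(u : G) * (y * (u : G)⁻¹ * y⁻¹), U.mul_mem u.2 (hyU _ (U.inv_mem u.2))⟩
  have hinj : Function.Injective f := by
    intro a b h
    have h1 : (a : G) * (y * (a : G)⁻¹ * y⁻¹) = (b : G) * (y * (b : G)⁻¹ * y⁻¹) := congrArg Subtype.val h
    have h2 : (b : G)⁻¹ * a = 1 := by
      apply hfix _ (U.mul_mem (U.inv_mem b.2) a.2)
      calc y * ((b : G)⁻¹ * a) = (b : G)⁻¹ * ((b : G) * (y * (b : G)⁻¹ * y⁻¹)) * y * a := by group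
        _ = (b : G)⁻¹ * ((a : G) * (y * (a : G)⁻¹ * y⁻¹)) * y * a := by rw [h1]
        _ = (b : G)⁻¹ * a * y := by group
    exact Subtype.ext (inv_mul_eq_one.1 h2).symm
  intro u hu
  obtain ⟨a, ha⟩ := (Finite.injective_iff_surjective.1 hinj) ⟨u, hu⟩
  have h3 : (a : G) * (y * (a : G)⁻¹ * y⁻¹) = u := congrArg Subtype.val ha
  have h4 : u = a * y * (a : G)⁻¹ * y⁻¹ := by rw [← h3]; group
  rw [h4]
  exact mem_cmm a.2

end mix

end Cfsg.Agent.H368.RG
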